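import Cfsg.Agent.H35.OddPush.Spec
import Cfsg.Agent.H29.Push.SymImages
import Mathlib

/-!
The exactly offending normal subgroups of the Sylow 2-subgroup in the symmetric case.
-/

set_option autoImplicit false
set_option linter.style.haveILetI false
set_option linter.unusedSectionVars false
set_option maxHeartbeats 1000000

open scoped commutatorElement

namespace Cfsg.Agent.H29.OddPush

open Subgroup
open Cfsg.Agent.H34.Push (vee cee Comps SymRep SymCase Ctx)
open Cfsg.Agent.H34.Star (evW evAct evPair)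
open Cfsg.Agent.H29.Push
open Cfsg.Agent.H35.OddPush (oddCent Nbr OffIn Case mem_core_of_small star_cent_le_oddCent)

universe u

variable {G : Type u} [Group G] [Finite G] {T : Sylow 2 G} {M : Subgroup G}
  {r : ℕ} {E : Fin r → Subgroup G} {n : ℕ}

/-- A vector of `V` centralised by `O²(G)` has trivial coordinates. -/
theorem coord_eq_one (h : SymCase T E n) (F : Frame E n 2) {w : ↥(vee 2 G)}
    (hw : (w : G) ∈ oddCent G) (i : Fin r) : F.Φ i w = 1 := by
  classical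
  have hn3 := three_le_degree h.pos_n
  set y := Multiplicative.toAdd (F.Φ i w) with hy
  have hcyc : ∀ s : Equiv.Perm (Fin (2 ^ n + 1)), s ^ 3 = 1 → evAct s y = y := by
    intro s hs
    obtain ⟨x, hx, hxs⟩ := F.surjπ i s
    obtain ⟨k, hk⟩ := H22.exists_pow_mem_pResidual (p := 2) (x : G)
    have hmem : ((x ^ (4 ^ k) : ↥(⨆ i, E i)) : G) ∈ Cfsg.pResidual 2 G := by
      rw [coe_pow, show 4 ^ k = 2 ^ k * 2 ^ k by rw [← mul_pow]; norm_num, pow_mul]
      exact pow_mem hk _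
    have hπ : F.π i (x ^ (4 ^ k)) = s := by
      rw [map_pow, hxs, ← Nat.div_add_mod (4 ^ k) 3, pow_add, pow_mul, hs, one_pow, one_mul,
        Nat.pow_mod, show 4 % 3 = 1 from rfl, one_pow, show 1 % 3 = 1 from rfl, pow_one]
    have hfix : ((x ^ (4 ^ k) : ↥(⨆ i, E i)) : G) * (w : G) * ((x ^ (4 ^ k) : ↥(⨆ i, E i)) : G)⁻¹ = w := by
      rw [mem_centralizer_iff.1 hw _ hmem, mul_inv_cancel_right]
    have e := F.act i (x ^ (4 ^ k)) w w hfix.symm
    rw [hπ] at e
    exact e.symm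
  have hconst : ∀ a b, y.1 a = y.1 b := by
    intro a b
    by_cases hab : a = b
    · rw [hab]
    obtain ⟨c, hc⟩ : ∃ c, c ∉ ({a, b} : Finset (Fin (2 ^ n + 1))) := by
      by_contra hall
      push Not at hall
      have h1 := Finset.card_le_card (show Finset.univ ⊆ ({a, b} : Finset (Fin (2 ^ n + 1))) from fun x _ => hall x)
      rw [Finset.card_univ, Fintype.card_fin, Finset.card_pair hab] at h1
      omega
    simp only [Finset.mem_insert, Finset.mem_singleton, not_or] at hc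
    have h3 : Equiv.Perm.IsThreeCycle (Equiv.swap a b * Equiv.swap a c) :=
      Equiv.Perm.isThreeCycle_swap_mul_swap_same hab (Ne.symm hc.1) (Ne.symm hc.2)
    have e := congrArg (fun z : ↥(evW (2 ^ n + 1)) => z.1 b)
      (hcyc (Equiv.swap a b * Equiv.swap a c) (by rw [← h3.orderOf, pow_orderOf_eq_one]))
    have hinv : (Equiv.swap a b * Equiv.swap a c)⁻¹ b = c := by
      rw [mul_inv_rev, Equiv.swap_inv, Equiv.swap_inv, Equiv.Perm.mul_apply, Equiv.swap_apply_right,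
        Equiv.swap_apply_left]
    have e' := congrArg (fun z : ↥(evW (2 ^ n + 1)) => z.1 a)
      (hcyc (Equiv.swap a b * Equiv.swap a c) (by rw [← h3.orderOf, pow_orderOf_eq_one]))
    have hinv' : (Equiv.swap a b * Equiv.swap a c)⁻¹ a = b := by
      rw [mul_inv_rev, Equiv.swap_inv, Equiv.swap_inv, Equiv.Perm.mul_apply, Equiv.swap_apply_left,
        Equiv.swap_apply_of_ne_of_ne (Ne.symm hab) (Ne.symm hc.2)]
    simp only [evAct] at e e'
    rw [hinv'] at e'
    exact e'.symm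
  refine Multiplicative.toAdd.injective (Subtype.ext (funext fun a => ?_))
  rw [toAdd_one]
  show y.1 a = 0
  have hs : ∑ b, y.1 b = 0 := y.2
  rwa [Finset.sum_congr rfl (fun b _ => hconst b a), Finset.sum_const, Finset.card_univ, Fintype.card_fin,
    nsmul_eq_mul, odd_degree h.pos_n, one_mul] at hs

/-- Vectors with trivial coordinates are centralised by `O²(G)`. -/
theorem mem_oddCent_of_coord (h : Comps T E) (F : Frame E n 2) {w : ↥(vee 2 G)}
    (hw : ∀ i, F.Φ i w = 1) : (w : G) ∈ oddCent G := by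
  refine star_cent_le_oddCent h (le_centralizer_iff.1 (iSup_le fun i => le_centralizer_iff.1 (zpowers_le.2 ?_))
    (mem_zpowers _))
  exact (F.kerΦ i w).1 (hw i)

/-- A commutator with `V` is centralised by `O²(G)` exactly if all coordinates are fixed. -/
theorem comm_mem_iff (h : SymCase T E n) (F : Frame E n 2) (x : ↥(⨆ i, E i)) (w : ↥(vee 2 G)) :
    ⁅(w : G), (x : G)⁆ ∈ oddCent G ↔
      ∀ i, evAct (F.π i x) (Multiplicative.toAdd (F.Φ i w)) = Multiplicative.toAdd (F.Φ i w) := by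
  haveI := H35.OddPush.vee_normal (G := G)
  let c : ↥(vee 2 G) := ⟨x * w * (x : G)⁻¹, Normal.conj_mem inferInstance _ w.2 _⟩
  have hval : ((w * c⁻¹ : ↥(vee 2 G)) : G) = ⁅(w : G), (x : G)⁆ := by
    rw [coe_mul, coe_inv, commutatorElement_def]
    show (w : G) * ((x : G) * w * (x : G)⁻¹)⁻¹ = _
    group
  rw [← hval]
  have hc : ∀ i, Multiplicative.toAdd (F.Φ i (w * c⁻¹)) = Multiplicative.toAdd (F.Φ i w) -
      evAct (F.π i x) (Multiplicative.toAdd (F.Φ i w)) := fun i => by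
    rw [map_mul, map_inv, toAdd_mul, toAdd_inv, F.act i x w c rfl, sub_eq_add_neg]
  constructor
  · intro hm i
    have e := hc i
    rw [coord_eq_one h F hm i, toAdd_one, eq_comm, sub_eq_zero] at e
    exact e.symm
  · intro hfix
    refine mem_oddCent_of_coord h.toComps F fun i => Multiplicative.toAdd.injective ?_
    rw [hc, hfix, sub_self, toAdd_one]

/-- An exactly offending normal subgroup moves points inside their pairs and contains every swap. -/
theorem nbr_pairs (h : SymCase T E n) {F : Frame E n 2} (P : Pairs F (T : Subgroup G)) (hoff : OffIn T E)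
    {X : Subgroup G} (hX : Nbr T X) :
    X ≤ swapGroup P ∧ ∀ i a, a ≠ P.f i → ∃ b : ↥(⨆ i, E i), (b : G) ∈ X ∧ (b : G) ∈ E i ∧
      F.π i b = Equiv.swap a (P.σ i a) := by
  classical
  haveI := hX.elem.1
  haveI : (cee 2 G).Normal := H34.Push.cee_normal
  set EE := ⨆ i, E i with hEE
  have hXE : X ≤ EE := hoff X hX
  obtain ⟨hle, hsw⟩ := offender_in_pairs h P hX.le hXE hX.exact_off.le
  refine ⟨hle, fun j a ha => ?_⟩
  -- one pair of one component, then all
  have hone : ∀ i (e : ↥EE), (e : G) ∈ X → F.π i e ≠ 1 →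
      ∃ a, a ≠ P.f i ∧ ∃ b : ↥EE, (b : G) ∈ X ∧ (b : G) ∈ E i ∧ F.π i b = Equiv.swap a (P.σ i a) := by
    intro i e he hne
    obtain ⟨a, ha⟩ : ∃ a, F.π i e a ≠ a := by
      by_contra hall
      push Not at hall
      exact hne (Equiv.ext hall)
    exact ⟨a, fun e' => ha (e' ▸ P.fix i e (hX.le he)), hsw i e he a ha⟩
  obtain ⟨x, hx, hxC⟩ := SetLike.not_le_iff_exists.1 hX.move
  obtain ⟨i, hi⟩ : ∃ i, F.π i ⟨x, hXE hx⟩ ≠ 1 := by
    by_contra hall
    push Not at hall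
    exact hxC ((F.kerπ ⟨x, hXE hx⟩).1 hall)
  obtain ⟨a₀, ha₀, y, hyX, hyE, hyπ⟩ := hone i _ hx hi
  obtain ⟨t, ht, htE⟩ := h.trans i j
  have hy' : t * (y : G) * t⁻¹ ∈ X := (mem_normalizer_iff.1 (hX.norm ht) _).1 hyX
  have hne : F.π j ⟨_, hXE hy'⟩ ≠ 1 := by
    intro e1
    have h2 : ((⟨_, hXE hy'⟩ : ↥EE) : G) ∈ cee 2 G := (F.kerπ _).1 fun k => by
      by_cases hk : k = j
      · subst hk; exact e1
      · exact F.other k j hk _ (htE.le ⟨y, hyE, rfl⟩)
    have hyC := Normal.conj_mem (inferInstance : (cee 2 G).Normal) _ h2 t⁻¹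
    rw [inv_inv, show t⁻¹ * (t * (y : G) * t⁻¹) * t = (y : G) by group] at hyC
    have := (F.kerπ y).2 hyC i
    rw [hyπ, Equiv.Perm.one_def, Equiv.swap_eq_refl_iff] at this
    exact (P.pair i).ne ha₀ this.symm
  obtain ⟨a₁, ha₁, b, hb, hbE, hbπ⟩ := hone j _ hy' hne
  obtain ⟨e, heT, heE, heab⟩ := P.trans j a₁ a ha₁ ha
  have hb' : ((e * b * e⁻¹ : ↥EE) : G) ∈ X := (mem_normalizer_iff.1 (hX.norm heT) _).1 hb
  have hπ' : F.π j (e * b * e⁻¹) = Equiv.swap (F.π j e a₁) (F.π j e (P.σ j a₁)) := by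
    rw [map_mul, map_mul, map_inv, hbπ, Equiv.swap_apply_apply]
  refine ⟨e * b * e⁻¹, hb', mul_mem (mul_mem heE hbE) (inv_mem heE), ?_⟩
  rw [hπ', heab]
  rw [heab] at hπ'
  rw [P.transp j _ a _ (hX.le hb')
    (fun e' => (P.pair j).ne ha₁ ((F.π j e).injective (e'.symm.trans heab.symm))) hπ']

/-- The symmetric case. -/
theorem symCase (hc : Ctx T M) (h : SymCase T E n) (hoff : OffIn T E) : Case T := by
  classical
  haveI := H35.OddPush.vee_normal (G := G)
  haveI : (cee 2 G).Normal := H34.Push.cee_normal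
  haveI := H34.Push.pCore_normal' (G := G) (p := 2)
  obtain ⟨ρ, ψ, hr⟩ := h.rep ⟨0, h.pos⟩
  obtain ⟨F, -⟩ := exists_frame h _ hr
  obtain ⟨P⟩ := exists_pairs h F
  have hC := h.toComps
  set EE := ⨆ i, E i with hEE
  have hQT : Cfsg.pCore 2 G ≤ (T : Subgroup G) := H72.pCore_le_sylow T
  have hQW : Cfsg.pCore 2 G ≤ swapGroup P := H34.Push.core_le_cee.trans (cee_le_swapGroup hC P)
  -- elements of `X` with prescribed images
  have hfull : ∀ X, Nbr T X → ∀ f : Fin r → Equiv.Perm (Fin (2 ^ n + 1)),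
      (∀ i, f i ∈ swapsOf (P.σ i) (P.pair i).invol) → ∃ x : ↥EE, (x : G) ∈ X ∧ ∀ i, F.π i x = f i := by
    intro X hX f hf
    obtain ⟨x, hx, hxf⟩ := exists_with_images F (fun i => X ⊓ E i) (fun i => inf_le_right) f fun i => by
      have hle : swapsOf (P.σ i) (P.pair i).invol ≤ ((X ⊓ E i).subgroupOf EE).map (F.π i) :=
        swapsOf_le (P.pair i) fun a ha => by
          obtain ⟨b, hb, hbE, hbπ⟩ := (nbr_pairs h P hoff hX).2 i a ha
          exact ⟨b, ⟨hb, hbE⟩, hbπ⟩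
      obtain ⟨b, hb, hbπ⟩ := hle (hf i)
      exact ⟨b, hb, hbπ⟩
    exact ⟨x, (iSup_le fun i => inf_le_left : (⨆ i, X ⊓ E i) ≤ X) hx, hxf⟩
  refine ⟨⟨(T : Subgroup G) ⊓ swapGroup P, fun X hX => ?_⟩, fun X hX g hg => ?_, ?_⟩
  · obtain ⟨hle, hsw⟩ := nbr_pairs h P hoff hX
    refine le_antisymm (sup_le (le_inf hX.le hle) (le_inf hQT hQW)) ?_
    refine le_sup_core hc inf_le_left hX.le (inf_le_right.trans ?_)
    refine (le_iSup_inf_sup P (fun i => X ⊓ E i) (fun i => inf_le_right) fun i a ha => ?_).trans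
      (sup_le_sup_right (iSup_le fun i => inf_le_left) _)
    obtain ⟨b, hb, hbE, hbπ⟩ := hsw i a ha
    exact ⟨b, ⟨hb, hbE⟩, hbπ⟩
  · obtain ⟨hgT, hgX⟩ := hg
    obtain ⟨hle, hsw⟩ := nbr_pairs h P hoff hX
    have hgx : ∀ x ∈ X, g * x * g⁻¹ = x := fun x hx => by
      rw [← mem_centralizer_iff.1 hgX x hx, mul_inv_cancel_right]
    have hpt : ∀ j, ∃ a, a ≠ P.f j := fun j => by
      haveI : Nontrivial (Fin (2 ^ n + 1)) := Fin.nontrivial_iff_two_le.2 (by
        have := three_le_degree h.pos_n; omega)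
      exact exists_ne _
    -- `g` fixes every component
    have hgE : ∀ i, (E i).map (MulAut.conj g).toMonoidHom = E i := by
      intro i
      obtain ⟨j, hj⟩ := hC.perm g hgT i
      by_cases hji : j = i
      · rw [hj, hji]
      exfalso
      obtain ⟨a, ha⟩ := hpt i
      obtain ⟨b, hb, hbE, hbπ⟩ := hsw i a ha
      have hbj : (b : G) ∈ E j := hgx b hb ▸ hj.le (mem_map_of_mem _ hbE)
      have e1 := F.other i j (Ne.symm hji) b hbj
      rw [hbπ, Equiv.Perm.one_def, Equiv.swap_eq_refl_iff] at e1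
      exact (P.pair i).ne ha e1.symm
    have hg1 : ∀ j, ∀ x ∈ E j, g * x * g⁻¹ ∈ E j := fun j x hx => (hgE j).le ⟨x, hx, rfl⟩
    have hg2 : ∀ j, ∀ x ∈ E j, g⁻¹ * x * g ∈ E j := fun j x hx => by
      obtain ⟨y, hy, hyx⟩ := (hgE j).ge hx
      rw [← show g * y * g⁻¹ = x from hyx]
      simpa [mul_assoc] using hy
    choose κ hκ using fun j => exists_induced h F j (hg1 j) (hg2 j)
    -- it fixes the vectors of the pairs, which lie in `[V, X]`
    have hκP : ∀ j, κ j ∈ swapsOf (P.σ j) (P.pair j).invol := fun j =>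
      mem_swapsOf_of_fix (P.pair j) fun a ha => by
        obtain ⟨b, hb, hbE, hbπ⟩ := hsw j a ha
        obtain ⟨u, -, hu⟩ := F.surjΦ j (Multiplicative.ofAdd (evPair a (P.f j)))
        let z : ↥(vee 2 G) := ⟨b * u * (b : G)⁻¹, Normal.conj_mem inferInstance _ u.2 _⟩ * u⁻¹
        have hqz : Multiplicative.toAdd (F.Φ j z) = evPair a (P.σ j a) := by
          rw [map_mul, map_inv, toAdd_mul, toAdd_inv, F.act j b u _ rfl, hbπ, hu, toAdd_ofAdd,
            H34.Star.evAct_pair, Equiv.swap_apply_left,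
            Equiv.swap_apply_of_ne_of_ne (Ne.symm ha) ((P.pair j).ne_f ha).symm]
          have hneg : -(evPair a (P.f j)) = evPair a (P.f j) :=
            Subtype.ext (funext fun i => ZMod.neg_eq_self_mod_two _)
          rw [hneg, H34.Star.evPair_comm a (P.f j), H34.Star.evPair_add, H34.Star.evPair_comm]
        have hzX : (z : G) ∈ X := by
          show (b : G) * (u : G) * (b : G)⁻¹ * (u : G)⁻¹ ∈ X
          have hT : (u : G) ∈ (T : Subgroup G) := hQT (H34.Push.vee_le_core u.2)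
          rw [show (b : G) * (u : G) * (b : G)⁻¹ * (u : G)⁻¹ =
            (b : G) * ((u : G) * (b : G)⁻¹ * (u : G)⁻¹) by group]
          exact mul_mem hb ((mem_normalizer_iff.1 (hX.norm hT) _).1 (inv_mem hb))
        have := hκ j z z (hgx _ hzX).symm
        rw [hqz] at this
        exact this.symm
    obtain ⟨x, hx, hxf⟩ := hfull X hX κ hκP
    have hsmall : (x : G)⁻¹ * g ∈ Cfsg.pCore 2 G := by
      refine mem_core_of_small hc ((T : Subgroup G).mul_mem ((T : Subgroup G).inv_mem (hX.le hx)) hgT) fun w hw => ?_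
      let w₁ : ↥(vee 2 G) := ⟨g * w * g⁻¹, Normal.conj_mem inferInstance _ hw g⟩
      let w₂ : ↥(vee 2 G) := ⟨(x : G)⁻¹ * w₁ * ((x : G)⁻¹)⁻¹, Normal.conj_mem inferInstance _ w₁.2 _⟩
      rw [show ⁅w, (x : G)⁻¹ * g⁆ = ((⟨w, hw⟩ * w₂⁻¹ : ↥(vee 2 G)) : G) by
        simp [w₂, w₁, commutatorElement_def, mul_assoc]]
      refine mem_oddCent_of_coord hC F fun i => Multiplicative.toAdd.injective ?_
      rw [map_mul, map_inv, toAdd_mul, toAdd_inv, F.act i x⁻¹ w₁ w₂ rfl, hκ i ⟨w, hw⟩ w₁ rfl, map_inv,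
        hxf i, ← H34.Star.evAct_mul, inv_mul_cancel, H34.Star.evAct_one, add_neg_cancel, toAdd_one]
    rw [show g = (x : G) * ((x : G)⁻¹ * g) by group]
    exact mul_mem (mem_sup_left hx) (mem_sup_right hsmall)
  · intro X hX x hx x' hx' w hw w' hw' h1 h2
    have hXE := hoff X hX
    have hle := (nbr_pairs h P hoff hX).1
    refine (comm_mem_iff h F ⟨x', hXE hx'⟩ ⟨w, hw⟩).2 fun i => ?_
    let cw : ↥(vee 2 G) := ⟨x' * w * x'⁻¹, Normal.conj_mem inferInstance _ hw _⟩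
    let cw' : ↥(vee 2 G) := ⟨x * w' * x⁻¹, Normal.conj_mem inferInstance _ hw' _⟩
    have hval : ((⟨w, hw⟩ * cw⁻¹ * (⟨w', hw'⟩ * cw'⁻¹) : ↥(vee 2 G)) : G) = ⁅w, x'⁆ * ⁅w', x⁆ := by
      simp [cw, cw', commutatorElement_def, mul_assoc]
    have e := congrArg Multiplicative.toAdd (coord_eq_one h F (hval.symm ▸ h2) i)
    simp only [map_mul, map_inv, toAdd_mul, toAdd_inv, toAdd_one] at e
    rw [F.act i ⟨x', hXE hx'⟩ ⟨w, hw⟩ cw rfl, F.act i ⟨x, hXE hx⟩ ⟨w', hw'⟩ cw' rfl] at e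
    have e1 := (comm_mem_iff h F ⟨x, hXE hx⟩ ⟨w, hw⟩).1 h1 i
    have hs : ∀ {z : G} (hz : z ∈ X), F.π i ⟨z, hXE hz⟩ ∈ swapsOf (P.σ i) (P.pair i).invol := fun hz => by
      obtain ⟨hg, hall⟩ := mem_swapGroup.1 (hle hz)
      exact hall i
    have hsx := inv_mem (hs hx)
    have hsx' := inv_mem (hs hx')
    refine Subtype.ext (funext fun a => ?_)
    set y := Multiplicative.toAdd (F.Φ i ⟨w, hw⟩)
    set y' := Multiplicative.toAdd (F.Φ i ⟨w', hw'⟩)
    set s := F.π i ⟨x, hXE hx⟩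
    set s' := F.π i ⟨x', hXE hx'⟩
    show y.1 (s'⁻¹ a) = y.1 a
    have e2 : y.1 a + -y.1 (s'⁻¹ a) + (y'.1 a + -y'.1 (s⁻¹ a)) = 0 :=
      congrArg (fun z : ↥(evW (2 ^ n + 1)) => z.1 a) e
    have e3 : y.1 (s⁻¹ a) = y.1 a := congrArg (fun z : ↥(evW (2 ^ n + 1)) => z.1 a) e1
    rcases hsx' a with q | q
    · rw [q]
    rcases hsx a with q' | q'
    · rw [q', add_neg_cancel, add_zero, ← sub_eq_add_neg, sub_eq_zero] at e2
      exact e2.symm
    · rw [q, ← q', e3]

end Cfsg.Agent.H29.OddPush
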